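import Cfsg.Agent.H511.Co.LocBasic

/-!
S5227, section A: the simple normal subgroup (`exists_simple`) and the triviality of its centralizer.
-/

set_option autoImplicit false
set_option linter.style.longLine false

namespace Cfsg.Agent.H511.Co

open Subgroup Cfsg.Agent.H776.Co LocBasic

universe u
variable {Γ : Type u} [Group Γ] [Finite Γ] {T U1 U2 : Subgroup Γ} {z : Γ}

/-- nontrivial subgroups of `K` invariant under `K` -/
def Inv (K S : Subgroup Γ) : Prop := S ≤ K ∧ S ≠ ⊥ ∧ ∀ k ∈ K, ∀ s ∈ S, k * s * k⁻¹ ∈ S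

/-- minimal ones -/
def MinInv (K S : Subgroup Γ) : Prop := Inv K S ∧ ∀ R, Inv K R → R ≤ S → R = S

omit [Finite Γ] in
theorem Inv.inf {K A B : Subgroup Γ} (hA : Inv K A) (hB : Inv K B) (hne : A ⊓ B ≠ ⊥) : Inv K (A ⊓ B) :=
  ⟨inf_le_left.trans hA.1, hne, fun k hk s hs => ⟨hA.2.2 k hk s hs.1, hB.2.2 k hk s hs.2⟩⟩

theorem exists_minInv {K A : Subgroup Γ} (hA : Inv K A) : ∃ S, MinInv K S ∧ S ≤ A := by
  classical
  obtain ⟨n, hn⟩ : ∃ n, ∃ S, Inv K S ∧ S ≤ A ∧ Nat.card S = n := ⟨_, A, hA, le_rfl, rfl⟩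
  have hex : ∃ n, ∃ S, Inv K S ∧ S ≤ A ∧ Nat.card S = n := ⟨n, hn⟩
  obtain ⟨S, hS, hSA, hc⟩ := Nat.find_spec hex
  refine ⟨S, ⟨hS, fun R hR hRS => ?_⟩, hSA⟩
  apply Subgroup.eq_of_le_of_card_ge hRS
  rw [hc]
  exact Nat.find_min' hex ⟨R, hR, hRS.trans hSA, rfl⟩

omit [Finite Γ] in
theorem MinInv.inf_eq_bot {K A B : Subgroup Γ} (hA : MinInv K A) (hB : MinInv K B) (hne : A ≠ B) : A ⊓ B = ⊥ := by
  by_contra h
  have h1 := Inv.inf hA.1 hB.1 h
  apply hne
  rw [← hA.2 _ h1 inf_le_left]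
  exact hB.2 _ h1 inf_le_right

omit [Finite Γ] in
theorem MinInv.comm {K A B : Subgroup Γ} (hA : MinInv K A) (hB : MinInv K B) (hne : A ≠ B) {a b : Γ} (ha : a ∈ A) (hb : b ∈ B) :
    a * b = b * a := by
  have h := hA.inf_eq_bot hB hne
  have h1 : a * b * a⁻¹ * b⁻¹ ∈ A ⊓ B := by
    refine ⟨?_, ?_⟩
    · have := hA.1.2.2 b (hB.1.1 hb) a⁻¹ (A.inv_mem ha)
      have h2 := A.mul_mem ha this
      simpa [mul_assoc] using h2
    · exact B.mul_mem (hB.1.2.2 a (hA.1.1 ha) b hb) (B.inv_mem hb)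
  rw [h, mem_bot] at h1
  have h2 : a * b * (b * a)⁻¹ = 1 := by rw [mul_inv_rev]; simpa [mul_assoc] using h1
  exact mul_inv_eq_one.1 h2

/-- conjugate subgroup -/
abbrev cj (g : Γ) (S : Subgroup Γ) : Subgroup Γ := S.map (MulAut.conj g).toMonoidHom

omit [Finite Γ] in
theorem mem_cj {g : Γ} {S : Subgroup Γ} {x : Γ} : x ∈ cj g S ↔ g⁻¹ * x * g ∈ S := by
  constructor
  · rintro ⟨y, hy, rfl⟩
    simpa [mul_assoc] using hy
  · intro h
    refine ⟨_, h, ?_⟩
    simp [mul_assoc]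

omit [Finite Γ] in
theorem Inv.cj {K S : Subgroup Γ} (hK : K.Normal) (hS : Inv K S) (g : Γ) : Inv K (cj g S) := by
  refine ⟨?_, ?_, ?_⟩
  · intro x hx
    rw [mem_cj] at hx
    have := hK.conj_mem _ (hS.1 hx) g
    simpa [mul_assoc] using this
  · intro he
    apply hS.2.1
    exact (Subgroup.map_eq_bot_iff_of_injective _ (MulAut.conj g).injective).1 he
  · intro k hk s hs
    rw [mem_cj] at hs ⊢
    have h1 : g⁻¹ * k * g ∈ K := by
      have := hK.conj_mem _ hk g⁻¹
      simpa using this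
    have := hS.2.2 _ h1 _ hs
    simpa [mul_assoc] using this

omit [Finite Γ] in
theorem cj_cj (a b : Γ) (S : Subgroup Γ) : cj a (cj b S) = cj (a * b) S := by
  ext x
  rw [mem_cj, mem_cj, mem_cj]
  simp [mul_assoc]

omit [Finite Γ] in
theorem cj_one (S : Subgroup Γ) : cj 1 S = S := by
  ext x
  rw [mem_cj]
  simp

omit [Finite Γ] in
theorem cj_mono (g : Γ) {A B : Subgroup Γ} (h : A ≤ B) : cj g A ≤ cj g B := Subgroup.map_mono h

omit [Finite Γ] in
theorem MinInv.cj {K S : Subgroup Γ} (hK : K.Normal) (hS : MinInv K S) (g : Γ) : MinInv K (cj g S) := by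
  refine ⟨hS.1.cj hK g, fun R hR hle => ?_⟩
  have h1 := hR.cj hK g⁻¹
  have h2 : Co.cj g⁻¹ R ≤ S := by
    have := cj_mono g⁻¹ hle
    rwa [cj_cj, inv_mul_cancel, cj_one] at this
  have h3 := hS.2 _ h1 h2
  rw [← h3, cj_cj, mul_inv_cancel, cj_one]

/-- `T` normalises every minimal `K`-invariant subgroup of the normal subgroup `K` -/
theorem cj_eq (h : Loc T U1 U2 z ⊥) {K S : Subgroup Γ} (hK : K.Normal) (hS : MinInv K S) {t : Γ} (ht : t ∈ T) : cj t S = S := by
  by_contra hne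
  obtain ⟨y, hyT, hyS, hy1⟩ := exists_mem h hK hS.1.1 hS.1.2.2 hS.1.2.1
  have hti : cj t⁻¹ S ≠ S := by
    intro he
    apply hne
    conv_lhs => rw [← he]
    rw [cj_cj, mul_inv_cancel, cj_one]
  have htt : cj t S ≠ cj t⁻¹ S := by
    intro he
    have h1 : cj t (cj t S) = S := by rw [he, cj_cj, mul_inv_cancel, cj_one]
    apply hti
    have h2 : t⁻¹ = t * t := by
      have := h.exp t ht
      rw [inv_eq_iff_mul_eq_one]
      rw [← this, pow_succ, pow_two, mul_assoc]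
    rw [h2, ← cj_cj, h1]
  have m1 := hS.cj hK t
  have m2 := hS.cj hK t⁻¹
  have y1 : t * y * t⁻¹ ∈ cj t S := by rw [mem_cj]; simpa [mul_assoc] using hyS
  have y2 : t⁻¹ * y * t ∈ cj t⁻¹ S := by rw [mem_cj]; simpa [mul_assoc] using hyS
  have c1 : y⁻¹ * (t * y * t⁻¹) ∈ zpowers z := by
    have := comm_mem h (T.inv_mem hyT) ht
    simpa [mul_assoc] using this
  have c2 : y⁻¹ * (t⁻¹ * y * t) ∈ zpowers z := by
    have := comm_mem h (T.inv_mem hyT) (T.inv_mem ht)
    simpa [mul_assoc] using this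
  have n1 : y⁻¹ * (t * y * t⁻¹) ≠ 1 := by
    intro he
    have he' : t * y * t⁻¹ = y := (inv_mul_eq_one.1 he).symm
    rw [he'] at y1
    have : y ∈ cj t S ⊓ S := ⟨y1, hyS⟩
    rw [m1.inf_eq_bot hS hne] at this
    exact hy1 this
  have n2 : y⁻¹ * (t⁻¹ * y * t) ≠ 1 := by
    intro he
    have he' : t⁻¹ * y * t = y := (inv_mul_eq_one.1 he).symm
    rw [he'] at y2
    have : y ∈ cj t⁻¹ S ⊓ S := ⟨y2, hyS⟩
    rw [m2.inf_eq_bot hS hti] at this
    exact hy1 this
  have hor : y⁻¹ * (t * y * t⁻¹) = y⁻¹ * (t⁻¹ * y * t) ∨ y⁻¹ * (t * y * t⁻¹) = (y⁻¹ * (t⁻¹ * y * t))⁻¹ := by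
    rcases mem_zpowers_z h c1 with e1 | e1 | e1
    · exact absurd e1 n1
    · rcases mem_zpowers_z h c2 with e2 | e2 | e2
      · exact absurd e2 n2
      · left; rw [e1, e2]
      · right; rw [e1, e2, inv_inv]
    · rcases mem_zpowers_z h c2 with e2 | e2 | e2
      · exact absurd e2 n2
      · right; rw [e1, e2]
      · left; rw [e1, e2]
  rcases hor with e | e
  · have e' : t * y * t⁻¹ = t⁻¹ * y * t := mul_left_cancel e
    have : t * y * t⁻¹ ∈ cj t S ⊓ cj t⁻¹ S := ⟨y1, by rw [e']; exact y2⟩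
    rw [m1.inf_eq_bot m2 htt, mem_bot] at this
    apply hy1
    have h3 := congrArg (fun w => t⁻¹ * w * t) this
    simpa [mul_assoc] using h3
  · have e' : t * y * t⁻¹ = y * (t⁻¹ * y * t)⁻¹ * y := by
      have := congrArg (fun w => y * w) e
      simpa [mul_assoc] using this
    -- `y' = t y t⁻¹` is central in `cj t S`
    let C : Subgroup Γ := cj t S ⊓ centralizer (cj t S : Set Γ)
    have hC : C = ⊥ := by
      refine eq_bot_of_comm h hK (inf_le_left.trans m1.1.1) ?_ ?_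
      · intro k hk r hr
        refine ⟨m1.1.2.2 k hk r hr.1, ?_⟩
        refine mem_centralizer_iff.2 ?_
        intro s hs
        have h5 : k⁻¹ * s * k ∈ cj t S := by
          have := m1.1.2.2 k⁻¹ (K.inv_mem hk) s hs
          simpa using this
        have h6 := (mem_centralizer_iff.1 hr.2) _ h5
        have h7 := congrArg (fun w => k * w * k⁻¹) h6
        simpa [mul_assoc] using h7
      · intro x hx y hy
        exact (mem_centralizer_iff.1 hx.2 y hy.1).symm
    have hmem : t * y * t⁻¹ ∈ C := by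
      refine ⟨y1, ?_⟩
      refine mem_centralizer_iff.2 ?_
      intro s hs
      have a1 : Commute s y := m1.comm hS hne hs hyS
      have a2 : Commute s (t⁻¹ * y * t) := m1.comm m2 htt hs y2
      have a3 : Commute s (t * y * t⁻¹) := by
        rw [e']
        exact (a1.mul_right a2.inv_right).mul_right a1
      exact a3
    rw [hC, mem_bot] at hmem
    apply hy1
    have h3 := congrArg (fun w => t⁻¹ * w * t) hmem
    simpa [mul_assoc] using h3

theorem z_mem_minInv (h : Loc T U1 U2 z ⊥) {K S : Subgroup Γ} (hK : K.Normal) (hS : MinInv K S) : z ∈ S := by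
  obtain ⟨y, hyT, hyS, hy1⟩ := exists_mem h hK hS.1.1 hS.1.2.2 hS.1.2.1
  refine z_mem h ?_ hyT hyS hy1
  intro t ht r hr
  have := cj_eq h hK hS ht
  rw [← this, mem_cj]
  simpa [mul_assoc] using hr

/-- a nontrivial normal subgroup of `Γ` contains `z` -/
theorem z_mem_of_normal (h : Loc T U1 U2 z ⊥) {N : Subgroup Γ} (hN : N.Normal) (hne : N ≠ ⊥) : z ∈ N := by
  obtain ⟨y, hyT, hyS, hy1⟩ := exists_mem h hN le_rfl (fun k _ r hr => hN.conj_mem r hr k) hne
  exact z_mem h (fun t _ r hr => hN.conj_mem r hr t) hyT hyS hy1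

/-- a minimal `K`-invariant subgroup of a normal subgroup is normal -/
theorem minInv_normal (h : Loc T U1 U2 z ⊥) {K S : Subgroup Γ} (hK : K.Normal) (hS : MinInv K S) : S.Normal := by
  have key : ∀ g : Γ, cj g S = S := by
    intro g
    by_contra hne
    have h1 := z_mem_minInv h hK (hS.cj hK g)
    have h2 := z_mem_minInv h hK hS
    have : z ∈ cj g S ⊓ S := ⟨h1, h2⟩
    rw [(hS.cj hK g).inf_eq_bot hS hne] at this
    exact h.z_ne this
  constructor
  intro n hn g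
  rw [← key g, mem_cj]
  simpa [mul_assoc] using hn

/-- the simple normal subgroup -/
theorem exists_simple (h : Loc T U1 U2 z ⊥) : ∃ K : Subgroup Γ, K.Normal ∧ IsSimpleGroup K ∧ (¬ IsMulCommutative K) ∧ z ∈ K := by
  have htop : Inv (⊤ : Subgroup Γ) ⊤ := by
    refine ⟨le_rfl, ?_, fun _ _ _ _ => mem_top _⟩
    intro he
    have : z ∈ (⊤ : Subgroup Γ) := mem_top z
    rw [he] at this
    exact h.z_ne this
  obtain ⟨K, hK, -⟩ := exists_minInv htop
  have hKn : K.Normal := ⟨fun n hn g => hK.1.2.2 g (mem_top g) n hn⟩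
  have hKne : K ≠ ⊥ := hK.1.2.1
  have hz : z ∈ K := z_mem_of_normal h hKn hKne
  refine ⟨K, hKn, ?_, ?_, hz⟩
  · have hnt : Nontrivial K := (nontrivial_iff_ne_bot K).2 hKne
    refine { eq_bot_or_eq_top_of_normal := ?_ }
    intro N hN
    by_contra hcon
    push Not at hcon
    obtain ⟨hb, ht⟩ := hcon
    have hNi : Inv K (N.map K.subtype) := by
      refine ⟨?_, ?_, ?_⟩
      · rintro x ⟨y, _, rfl⟩
        exact y.2
      · intro he
        exact hb ((Subgroup.map_eq_bot_iff_of_injective _ K.subtype_injective).1 he)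
      · rintro k hk s ⟨y, hy, rfl⟩
        exact ⟨⟨k, hk⟩ * y * ⟨k, hk⟩⁻¹, hN.conj_mem y hy _, rfl⟩
    obtain ⟨S, hS, hSN⟩ := exists_minInv hNi
    have hSn := minInv_normal h hKn hS
    have h1 : Inv ⊤ S := ⟨le_top, hS.1.2.1, fun k _ s hs => hSn.conj_mem s hs k⟩
    have h2 := hK.2 _ h1 hS.1.1
    rw [h2] at hSN
    apply ht
    rw [eq_top_iff]
    intro x _
    obtain ⟨y, hy, hyx⟩ := hSN x.2
    have : y = x := Subtype.ext hyx
    rw [← this]
    exact hy
  · intro hc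
    apply hKne
    refine eq_bot_of_comm h hKn le_rfl (fun k _ r hr => hKn.conj_mem r hr k) ?_
    intro x hx y hy
    have := hc.is_comm.comm (⟨x, hx⟩ : K) ⟨y, hy⟩
    exact congrArg Subtype.val this

/-- the centralizer of the simple normal subgroup is trivial -/
theorem centralizer_eq_bot (h : Loc T U1 U2 z ⊥) {K : Subgroup Γ} (hK : K.Normal) (hs : IsSimpleGroup K)
    (hc : ¬ IsMulCommutative K) (hz : z ∈ K) : centralizer (K : Set Γ) = ⊥ := by
  by_contra hne
  have hn : (centralizer (K : Set Γ)).Normal := inferInstance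
  have h1 := z_mem_of_normal h hn hne
  -- the centre of `K` is `⊤`, so `K` is commutative
  have h2 : (⟨z, hz⟩ : K) ∈ center K := by
    rw [mem_center_iff]
    intro g
    ext
    exact (mem_centralizer_iff.1 h1) g g.2
  rcases hs.eq_bot_or_eq_top_of_normal (center K) inferInstance with h3 | h3
  · rw [h3, mem_bot] at h2
    exact h.z_ne (congrArg Subtype.val h2)
  · apply hc
    refine ⟨⟨fun a b => ?_⟩⟩
    have : b ∈ center K := by rw [h3]; exact mem_top b
    exact (mem_center_iff.1 this) a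

end Cfsg.Agent.H511.Co
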