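import Mathlib
import Cfsg.Prelude.Def_Local
import Cfsg.Agent.Lib.NormalAbelian
import Cfsg.Agent.SignalizersComponents.CompBasic
import Cfsg.Agent.H776.Co.Loc

/-!
Basic facts on the local situation `Loc T U1 U2 z ⊥` (S5227, section A).
-/

set_option autoImplicit false
set_option linter.style.longLine false

namespace Cfsg.Agent.H511.Co.LocBasic

open Subgroup Cfsg.Agent.H776.Co

universe u
variable {Γ : Type u} [Group Γ] [Finite Γ] {T U1 U2 : Subgroup Γ} {z : Γ}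

theorem z_mem_T {Z : Subgroup Γ} (h : Loc T U1 U2 z Z) : z ∈ T := by
  have : z ∈ U1 ⊓ U2 := by rw [h.inf]; exact mem_zpowers z
  exact h.le1 this.1

theorem orderOf_z {Z : Subgroup Γ} (h : Loc T U1 U2 z Z) : orderOf z = 3 :=
  orderOf_eq_prime (h.exp z (z_mem_T h)) h.z_ne

theorem isPGroup_T {Z : Subgroup Γ} (h : Loc T U1 U2 z Z) : IsPGroup 3 T :=
  IsPGroup.of_card (n := 3) (by rw [h.card_T]; norm_num)

/-- an element of `⟨z⟩` other than `1` is `z` or `z⁻¹` -/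
theorem mem_zpowers_z {Z : Subgroup Γ} (h : Loc T U1 U2 z Z) {x : Γ} (hx : x ∈ zpowers z) :
    x = 1 ∨ x = z ∨ x = z⁻¹ := by
  obtain ⟨k, hk⟩ := mem_zpowers_iff.1 hx
  have h3 : z ^ (3 : ℤ) = 1 := by
    have := h.exp z (z_mem_T h)
    exact_mod_cast this
  have hk' : z ^ (k % 3) = x := by
    rw [← hk]
    conv_rhs => rw [← Int.emod_add_mul_ediv k 3, zpow_add, zpow_mul, h3, one_zpow, mul_one]
  have h1 : 0 ≤ k % 3 := Int.emod_nonneg _ (by norm_num)
  have h2 : k % 3 < 3 := Int.emod_lt_of_pos _ (by norm_num)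
  have h4 : k % 3 = 0 ∨ k % 3 = 1 ∨ k % 3 = 2 := by omega
  rcases h4 with h4 | h4 | h4
  · left; rw [← hk', h4, zpow_zero]
  · right; left; rw [← hk', h4, zpow_one]
  · right; right
    rw [← hk', h4]
    rw [eq_inv_iff_mul_eq_one]
    rw [← zpow_add_one]
    exact h3

/-- a subgroup normalised by `T` which meets `T` contains `z` -/
theorem z_mem {Z : Subgroup Γ} (h : Loc T U1 U2 z Z) {R : Subgroup Γ} (hR : ∀ t ∈ T, ∀ r ∈ R, t * r * t⁻¹ ∈ R)
    {y : Γ} (hyT : y ∈ T) (hyR : y ∈ R) (hy : y ≠ 1) : z ∈ R := by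
  have hp := isPGroup_T h
  have : Fact (Nat.Prime 3) := ⟨by norm_num⟩
  have : Group.IsNilpotent T := hp.isNilpotent
  have hn : (R.subgroupOf T).Normal := by
    constructor
    intro n hn g
    rw [mem_subgroupOf] at hn ⊢
    exact hR g g.2 n hn
  have hne : R.subgroupOf T ≠ ⊥ := by
    intro he
    have : (⟨y, hyT⟩ : T) ∈ R.subgroupOf T := hyR
    rw [he, mem_bot] at this
    exact hy (congrArg Subtype.val this)
  have h1 := Cfsg.Agent.Lib.NormalAbelian.normal_inf_center_ne_bot (R.subgroupOf T) hne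
  obtain ⟨c', hc1'⟩ := (Subgroup.ne_bot_iff_exists_ne_one).1 h1
  obtain ⟨c, hc⟩ := c'
  have hc1 : c ≠ 1 := fun he => hc1' (Subtype.ext he)
  have hcz : (c : T).1 ∈ zpowers z := by
    refine h.center _ (c : T).2 ?_
    intro y hy
    have := (mem_center_iff.1 hc.2) ⟨y, hy⟩
    have := congrArg Subtype.val this
    exact this.symm
  have hcR : (c : T).1 ∈ R := hc.1
  have hc2 : (c : T).1 ≠ 1 := fun he => hc1 (Subtype.ext he)
  rcases mem_zpowers_z h hcz with h2 | h2 | h2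
  · exact absurd h2 hc2
  · rw [← h2]; exact hcR
  · rw [← inv_inv z, ← h2]; exact R.inv_mem hcR

theorem pPrimeCore_eq_bot (h : Loc T U1 U2 z ⊥) : Cfsg.pPrimeCore 3 Γ = ⊥ := by
  have hn := Cfsg.Agent.Lib.Cores.pPrimeCore_normal (G := Γ) 3
  have hc := Cfsg.Agent.Lib.Cores.pPrimeCore_coprime (G := Γ) 3
  rw [eq_bot_iff]
  refine h.sig _ (fun t _ r hr => hn.conj_mem r hr t) ?_
  exact (Nat.Prime.coprime_iff_not_dvd (by norm_num)).1 hc.symm

theorem pCore_eq_bot (h : Loc T U1 U2 z ⊥) : Cfsg.pCore 3 Γ = ⊥ :=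
  h.core _ (Cfsg.Agent.Lib.Cores.pCore_normal 3) (Cfsg.Agent.Lib.Cores.pCore_isPGroup 3)

theorem card_mul_relIndex' {A B : Subgroup Γ} (h : A ≤ B) :
    Nat.card A * A.relIndex B = Nat.card B := by
  have h4 := Subgroup.relIndex_mul_relIndex ⊥ A B bot_le h
  rwa [Subgroup.relIndex_bot_left, Subgroup.relIndex_bot_left] at h4

theorem eq_bot_of_coprime (h : Loc T U1 U2 z ⊥) {R : Subgroup Γ} (hR : R.IsSubnormal) (h3 : ¬ 3 ∣ Nat.card R) : R = ⊥ := by
  have := Cfsg.Agent.SignalizersComponents.CompBasic.subnormal_coprime_le_pPrimeCore (p := 3) hR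
    ((Nat.Prime.coprime_iff_not_dvd (by norm_num)).2 h3).symm
  rw [pPrimeCore_eq_bot h] at this
  exact le_bot_iff.1 this

theorem eq_bot_of_pGroup (h : Loc T U1 U2 z ⊥) {R : Subgroup Γ} (hR : R.IsSubnormal) (h3 : IsPGroup 3 R) : R = ⊥ := by
  have := Cfsg.Agent.SignalizersComponents.CompBasic.subnormal_pGroup_le_pCore (p := 3) hR h3
  rw [pCore_eq_bot h] at this
  exact le_bot_iff.1 this

/-- `T ∩ K` is a Sylow 3-subgroup of the normal subgroup `K` -/
theorem not_dvd_relIndex {Z : Subgroup Γ} (h : Loc T U1 U2 z Z) (K : Subgroup Γ) [hK : K.Normal] : ¬ 3 ∣ T.relIndex K := by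
  intro hd
  apply h.syl
  refine dvd_trans hd ?_
  have h1 : (T ⊓ K).relIndex K = T.relIndex K := inf_relIndex_right T K
  have h2 : Nat.card ↥(T ⊓ K) * (T ⊓ K).relIndex K = Nat.card K := card_mul_relIndex' inf_le_right
  have h3 : Nat.card ↥(T ⊓ K) * (T ⊓ K).relIndex T = Nat.card T := card_mul_relIndex' inf_le_left
  have h4 : Nat.card T * T.relIndex (T ⊔ K) = Nat.card ↥(T ⊔ K) := card_mul_relIndex' le_sup_left
  have h5 : Nat.card K * K.relIndex (T ⊔ K) = Nat.card ↥(T ⊔ K) := card_mul_relIndex' le_sup_right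
  rw [relIndex_sup_right] at h5
  rw [inf_relIndex_left] at h3
  have h6 : T.relIndex (T ⊔ K) = T.relIndex K := by
    have hpos : 0 < Nat.card T := Nat.card_pos
    apply Nat.eq_of_mul_eq_mul_left hpos
    rw [h4, ← h5, ← h2, ← h3, h1]
    ring
  rw [← h6]
  exact relIndex_dvd_index_of_le le_sup_left

/-- every nontrivial subgroup `R` of `K` invariant under `K`, where `K` is normal, meets `T` -/
theorem exists_mem (h : Loc T U1 U2 z ⊥) {K R : Subgroup Γ} (hK : K.Normal) (hRK : R ≤ K)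
    (hR : ∀ k ∈ K, ∀ r ∈ R, k * r * k⁻¹ ∈ R) (hne : R ≠ ⊥) : ∃ y ∈ T, y ∈ R ∧ y ≠ 1 := by
  have : Fact (Nat.Prime 3) := ⟨by norm_num⟩
  have hn : (R.subgroupOf K).Normal := by
    constructor
    intro n hn g
    rw [mem_subgroupOf] at hn ⊢
    exact hR g g.2 n hn
  have hsub : R.IsSubnormal :=
    IsSubnormal.step _ K hRK hK.isSubnormal hn
  have h3 : 3 ∣ Nat.card R := by
    by_contra h3
    exact hne (eq_bot_of_coprime h hsub h3)
  obtain ⟨y, hy⟩ := exists_prime_orderOf_dvd_card' (G := R) 3 h3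
  -- the Sylow subgroup `T ∩ K` of `K`
  have hTK : IsPGroup 3 ↥(T.subgroupOf K) :=
    (isPGroup_T h).comap_of_injective K.subtype K.subtype_injective
  have hyo : orderOf (y : Γ) = 3 := by rw [← hy]; exact Subgroup.orderOf_coe y
  have hyK : (y : Γ) ∈ K := hRK y.2
  obtain ⟨P, hP⟩ := hTK.exists_le_sylow
  have hPT : (P : Subgroup K) = T.subgroupOf K := by
    symm
    apply Subgroup.eq_of_le_of_card_ge hP
    have h1 : Nat.card ↥(T.subgroupOf K) * (T.subgroupOf K).index = Nat.card K := card_mul_index _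
    have h2 : Nat.card P ∣ Nat.card K := card_subgroup_dvd_card _
    obtain ⟨n, hn⟩ := (IsPGroup.iff_card).1 P.isPGroup'
    have hco : (Nat.card P).Coprime (T.subgroupOf K).index := by
      rw [hn]
      apply Nat.Coprime.pow_left
      exact (Nat.Prime.coprime_iff_not_dvd (by norm_num)).2 (not_dvd_relIndex h K)
    rw [← h1] at h2
    exact Nat.le_of_dvd Nat.card_pos (hco.dvd_of_dvd_mul_right h2)
  have hyp : IsPGroup 3 ↥(zpowers (⟨y, hyK⟩ : K)) := by
    apply IsPGroup.of_card (n := 1)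
    rw [Nat.card_zpowers, Subgroup.orderOf_mk, hyo, pow_one]
  obtain ⟨Q, hQ⟩ := hyp.exists_le_sylow
  obtain ⟨k, hk⟩ := MulAction.exists_smul_eq K Q P
  have hm : (k * ⟨y, hyK⟩ * k⁻¹ : K) ∈ (P : Subgroup K) := by
    rw [← hk]
    have : (⟨y, hyK⟩ : K) ∈ (Q : Subgroup K) := hQ (mem_zpowers _)
    rw [Sylow.coe_subgroup_smul]
    exact Subgroup.smul_mem_pointwise_smul _ (MulAut.conj k) _ this
  rw [hPT, mem_subgroupOf] at hm
  refine ⟨_, hm, ?_, ?_⟩
  · exact hR k k.2 y y.2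
  · intro he
    have h5 : (k : Γ) * y * (k : Γ)⁻¹ = 1 := he
    have h6 : (y : Γ) = 1 := by
      have := congrArg (fun w => (k : Γ)⁻¹ * w * k) h5
      simpa [mul_assoc] using this
    rw [h6, orderOf_one] at hyo
    norm_num at hyo

/-- a commutative subgroup `R` of a normal subgroup `K`, invariant under `K`, is trivial -/
theorem eq_bot_of_comm (h : Loc T U1 U2 z ⊥) {K R : Subgroup Γ} (hK : K.Normal) (hRK : R ≤ K)
    (hR : ∀ k ∈ K, ∀ r ∈ R, k * r * k⁻¹ ∈ R) (hc : ∀ x ∈ R, ∀ y ∈ R, x * y = y * x) : R = ⊥ := by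
  by_contra hne
  obtain ⟨y, hyT, hyR, hy1⟩ := exists_mem h hK hRK hR hne
  let R3 : Subgroup Γ :=
    { carrier := {x | x ∈ R ∧ x ^ 3 = 1}
      one_mem' := ⟨R.one_mem, one_pow 3⟩
      mul_mem' := by
        intro a b ha hb
        refine ⟨R.mul_mem ha.1 hb.1, ?_⟩
        have : Commute a b := hc a ha.1 b hb.1
        rw [this.mul_pow, ha.2, hb.2, one_mul]
      inv_mem' := by
        intro a ha
        exact ⟨R.inv_mem ha.1, by rw [inv_pow, ha.2, inv_one]⟩ }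
  have hRR : R3 ≤ R := fun x hx => hx.1
  have hn : (R3.subgroupOf K).Normal := by
    constructor
    intro n hn g
    rw [mem_subgroupOf] at hn ⊢
    refine ⟨hR g g.2 n hn.1, ?_⟩
    have : ((g * n * g⁻¹ : K) : Γ) ^ 3 = (g : Γ) * (n : Γ) ^ 3 * (g : Γ)⁻¹ := by
      push_cast
      rw [conj_pow]
    rw [this, hn.2, mul_one, mul_inv_cancel]
  have hsub : R3.IsSubnormal :=
    IsSubnormal.step _ K (hRR.trans hRK) hK.isSubnormal hn
  have hp : IsPGroup 3 R3 := by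
    intro x
    refine ⟨1, ?_⟩
    ext
    push_cast
    exact x.2.2
  have := eq_bot_of_pGroup h hsub hp
  have hy3 : y ∈ R3 := ⟨hyR, h.exp y hyT⟩
  rw [this, mem_bot] at hy3
  exact hy1 hy3

/-- commutators of elements of `T` lie in `⟨z⟩` -/
theorem comm_mem {Z : Subgroup Γ} (h : Loc T U1 U2 z Z) {x y : Γ} (hx : x ∈ T) (hy : y ∈ T) : x * y * x⁻¹ * y⁻¹ ∈ zpowers z := by
  have : Fact (Nat.Prime 3) := ⟨by norm_num⟩
  let N : Subgroup T := (zpowers z).subgroupOf T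
  have hN : N.Normal := by
    constructor
    intro n hn g
    rw [mem_subgroupOf] at hn ⊢
    obtain ⟨k, hk⟩ := mem_zpowers_iff.1 hn
    have hc : Commute (g : Γ) (z ^ k) := Commute.zpow_right (h.z_comm g g.2) k
    have : ((g * n * g⁻¹ : T) : Γ) = (g : Γ) * (n : Γ) * (g : Γ)⁻¹ := rfl
    rw [this, ← hk, hc.eq, mul_assoc, mul_inv_cancel, mul_one]
    exact zpow_mem (mem_zpowers z) k
  have hcN : Nat.card N = 3 := by
    have h1 : Nat.card N = Nat.card (zpowers z) := by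
      refine Nat.card_congr (subgroupOfEquivOfLe ?_).toEquiv
      rw [zpowers_le]
      exact z_mem_T h
    rw [h1, Nat.card_zpowers, orderOf_z h]
  have hq : Nat.card (T ⧸ N) = 3 ^ 2 := by
    have := N.card_mul_index
    rw [hcN, h.card_T] at this
    have h2 : N.index = Nat.card (T ⧸ N) := rfl
    omega
  have hcom := IsPGroup.commutative_of_card_eq_prime_sq hq
  have h3 := hcom (QuotientGroup.mk ⟨y, hy⟩) (QuotientGroup.mk ⟨x, hx⟩)
  rw [← QuotientGroup.mk_mul, ← QuotientGroup.mk_mul, QuotientGroup.eq] at h3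
  have h4 : (((⟨y, hy⟩ : T) * ⟨x, hx⟩)⁻¹ * ((⟨x, hx⟩ : T) * ⟨y, hy⟩) : T).1 ∈ zpowers z := h3
  have h5 : x⁻¹ * y⁻¹ * (x * y) ∈ zpowers z := by
    have : (((⟨y, hy⟩ : T) * ⟨x, hx⟩)⁻¹ * ((⟨x, hx⟩ : T) * ⟨y, hy⟩) : T).1 = x⁻¹ * y⁻¹ * (x * y) := by
      simp [mul_inv_rev]
    rw [← this]; exact h4
  obtain ⟨k, hk⟩ := mem_zpowers_iff.1 h5
  have hcx : Commute x (z ^ k) := Commute.zpow_right (h.z_comm x hx) k
  have hcy : Commute y (z ^ k) := Commute.zpow_right (h.z_comm y hy) k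
  rw [mem_zpowers_iff]
  refine ⟨k, ?_⟩
  have e1 : x * y = y * x * z ^ k := by rw [hk]; group
  rw [e1]
  have e2 : y * x * z ^ k = z ^ k * (y * x) := (hcy.mul_left hcx).eq
  rw [e2]
  group

end Cfsg.Agent.H511.Co.LocBasic
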